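import Cfsg.Agent.S0120
import Cfsg.Agent.S0121
import Cfsg.Agent.Lib.Components.CentFixed
import Cfsg.Agent.Lib.Hall.OddRankTwo

/-!
A `p'`-group `Q` normalised by a `p`-group `E` and centralising the elements of order `p` of a
`p`-group `R` (p odd) which are centralised by `E` centralises all of `R`.
-/

set_option autoImplicit false
set_option linter.style.haveILetI false

namespace Cfsg.Agent.Lib.Coprime

open Subgroup
open scoped commutatorElement

theorem le_centralizer_of_omega_fixed {G : Type*} [Group G] [Finite G] {p : ℕ} [hp : Fact p.Prime]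
    (hp2 : p ≠ 2) {E Q : Subgroup G} (hE : IsPGroup p ↥E)
    (hQ : (Nat.card ↥Q).Coprime p) (hEQ : E ≤ normalizer (Q : Set G)) {R : Subgroup G}
    (hR : IsPGroup p ↥R) (hER : E ≤ normalizer (R : Set G)) (hQR : Q ≤ normalizer (R : Set G))
    (hfix : ∀ x ∈ R ⊓ centralizer (E : Set G), x ^ p = 1 → x ∈ centralizer (Q : Set G)) :
    R ≤ centralizer (Q : Set G) := by
  obtain ⟨H, hH, hH1, hH2, hH3⟩ := Thompson.exists_critical hR
  haveI := hH
  have hcl : ⁅_root_.commutator H, (⊤ : Subgroup H)⁆ = ⊥ := by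
    rw [commutator_eq_bot_iff_le_centralizer, coe_top, centralizer_univ, _root_.commutator_def, commutator_le]
    intro x _ y _
    have h1 : ((⁅x, y⁆ : H) : ↥R) ∈ H ⊓ centralizer (H : Set ↥R) :=
      hH2 (commutator_mem_commutator x.2 (mem_top (y : ↥R)))
    exact mem_center_iff.mpr fun z => Subtype.ext (mem_centralizer_iff.mp h1.2 (z : ↥R) z.2)
  let D : Subgroup G :=
    { carrier := {x | ∃ y : H, y ^ p = 1 ∧ ((y : ↥R) : G) = x}
      one_mem' := ⟨1, one_pow p, rfl⟩
      mul_mem' := by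
        rintro _ _ ⟨x, hx, rfl⟩ ⟨y, hy, rfl⟩
        exact ⟨x * y, Thompson.pow_mul_eq_one_class_two hp2 hcl hx hy, rfl⟩
      inv_mem' := by
        rintro _ ⟨x, hx, rfl⟩
        exact ⟨x⁻¹, by rw [inv_pow, hx, inv_one], rfl⟩ }
  have hDR : D ≤ R := by
    rintro _ ⟨y, -, rfl⟩
    exact (y : ↥R).2
  have hDn : normalizer (R : Set G) ≤ normalizer (D : Set G) := by
    have key : ∀ g ∈ normalizer (R : Set G), ∀ x ∈ D, g * x * g⁻¹ ∈ D := by
      rintro g hg _ ⟨y, hy, rfl⟩
      let a : MulAut ↥R := R.normalizerMonoidHom ⟨g, hg⟩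
      refine ⟨⟨a y, characteristic_iff_le_comap.mp hH a y.2⟩, ?_, rfl⟩
      apply Subtype.ext
      show (a y) ^ p = 1
      rw [← map_pow, ← SubmonoidClass.coe_pow, hy, OneMemClass.coe_one, map_one]
    intro g hg
    refine mem_normalizer_iff.mpr fun x => ⟨key g hg x, fun hx => ?_⟩
    have := key g⁻¹ (inv_mem hg) _ hx
    simpa [mul_assoc] using this
  have hD : D ≤ centralizer (Q : Set G) := by
    refine Components.le_centralizer_of_fixed_odd hp2 hE hQ hEQ (hR.to_le hDR) (hER.trans hDn)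
      (hQR.trans hDn) fun x hx => ?_
    obtain ⟨y, hy, rfl⟩ := hx.1
    refine hfix _ ⟨hDR hx.1, hx.2⟩ ?_
    rw [← SubmonoidClass.coe_pow, ← SubmonoidClass.coe_pow, hy]
    rfl
  intro r hr
  refine mem_centralizer_iff.mpr fun q hq => ?_
  let a : MulAut ↥R := R.normalizerMonoidHom ⟨q, hQR hq⟩
  have hcop : (orderOf a).Coprime p :=
    ((hQ.coprime_dvd_left (Subgroup.orderOf_dvd_natCard Q hq)).coprime_dvd_left
      ((orderOf_map_dvd R.normalizerMonoidHom ⟨q, hQR hq⟩).trans (orderOf_mk _ _).dvd))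
  have hHa : ∀ x ∈ H, a x = x := by
    have h1 : Hall.charRestrict H a = 1 := by
      refine Cfsg.Agent.S0120.result hp2 (hR.to_subgroup H) _
        (hcop.coprime_dvd_left (orderOf_map_dvd _ a)) fun x hx => ?_
      apply Subtype.ext
      apply Subtype.ext
      show q * ((x : ↥R) : G) * q⁻¹ = ((x : ↥R) : G)
      rw [mem_centralizer_iff.mp (hD ⟨x, hx, rfl⟩) q hq, mul_inv_cancel_right]
    intro x hx
    exact congrArg Subtype.val (DFunLike.congr_fun h1 (⟨x, hx⟩ : H))
  have ha : a = 1 := Cfsg.Agent.S0121.result hR H hH hH1 hH2 hH3 a hcop hHa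
  have := congrArg (fun x : ↥R => (x : G)) (DFunLike.congr_fun ha ⟨r, hr⟩)
  exact mul_inv_eq_iff_eq_mul.mp this

end Cfsg.Agent.Lib.Coprime
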